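import Cfsg.Agent.Leech.Keys
import Cfsg.Agent.SchurCert.Cert

/-!
A faster test that the generators of a polycyclic presentation generate a group of full order: the
products of an upper and a lower half are compared after sorting.
-/

set_option autoImplicit false

namespace Cfsg.Agent.Leech

open Cfsg.Agent.SchurCert

universe v

theorem perm_mergeF : ∀ (n : ℕ) (a b : List ℕ), (mergeF n a b).Perm (a ++ b)
  | 0, a, b => by simp [mergeF]
  | _ + 1, [], b => by simp [mergeF]
  | _ + 1, _ :: _, [] => by simp [mergeF]
  | n + 1, x :: a, y :: b => by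
    simp only [mergeF]
    cases Nat.blt x y
    · simp only [cond_false]
      exact ((perm_mergeF n (x :: a) b).cons y).trans List.perm_middle.symm
    · simp only [cond_true]
      exact (perm_mergeF n a (y :: b)).cons x

theorem perm_mergePairs : ∀ L : List (List ℕ), (mergePairs L).flatten.Perm L.flatten
  | [] => by simp [mergePairs]
  | [_] => by simp [mergePairs]
  | a :: b :: l => by
    simp only [mergePairs, List.flatten_cons]
    rw [← List.append_assoc]
    exact (perm_mergeF _ a b).append (perm_mergePairs l)

theorem perm_mergeAll : ∀ (n : ℕ) (L : List (List ℕ)), (mergeAll n L).Perm L.flatten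
  | 0, _ => List.Perm.refl _
  | n + 1, L => (perm_mergeAll n (mergePairs L)).trans (perm_mergePairs L)

theorem perm_sortKeys (l : List ℕ) : (sortKeys l).Perm l := by
  refine (perm_mergeAll 17 _).trans (List.Perm.of_eq ?_)
  induction l with
  | nil => rfl
  | cons a l ih => rw [List.map_cons, List.flatten_cons, ih]; rfl

theorem nodup_of_incB_sortKeys {l : List ℕ} (h : incB (sortKeys l) = true) : l.Nodup :=
  (perm_sortKeys l).nodup_iff.mp (nodup_of_incB h)

variable (D : Cert) (mul : ℕ → ℕ → ℕ) (one : ℕ)

/-- The codes of the products of powers of `d` generators from the `k`th on. -/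
def upperLayer (k : ℕ) : ℕ → List ℕ
  | 0 => [one]
  | d + 1 =>
    let L := upperLayer k d
    let g := D.gens.getD (k + d) one
    (List.range D.P.p).flatMap fun e =>
      let q := Cert.powCode mul one g e
      L.map fun x => mul x q

/-- The relations hold. -/
def relB : Bool :=
  (List.range D.P.n).all fun j =>
    Nat.beq (Cert.powCode mul one (D.gens.getD j one) D.P.p) (D.img mul one (D.P.powWord j)) &&
      ((List.range j).all fun i => Nat.beq (mul (D.gens.getD j one) (D.gens.getD i one))
        (mul (D.img mul one (D.P.cjWord j i)) (D.gens.getD j one)))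

/-- The `j`th generator is outside the group of those before it. -/
def sepB (k j : ℕ) : Bool :=
  bif Nat.blt j k then !((D.layer mul one j).any fun x => Nat.beq x (D.gens.getD j one))
  else incB (sortKeys ((D.layer mul one k).map (fun a => mul a (D.gens.getD j one)) ++
    upperLayer D mul one k (j - k)))

/-- All generators are outside. -/
def sepAll (k : ℕ) : Bool := (List.range D.P.n).all (sepB D mul one k)

variable {G : Type v} [Group G] [Finite G] (C : Code G) {gen : ℕ → G}

theorem exists_split {D : Cert} (hp : 0 < D.P.p) (hwf : D.P.wf = true) (hs : SatPC D.P gen)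
    (hgen : ∀ i < D.P.n, C.enc (gen i) = D.gens.getD i C.one) (k : ℕ) :
    ∀ d, k + d ≤ D.P.n → ∀ x ∈ initGroup gen (k + d), ∃ h ∈ initGroup gen k, ∃ u,
      x = h * u ∧ C.enc u ∈ upperLayer D C.mul C.one k d := by
  intro d
  induction d with
  | zero => intro _ x hx; exact ⟨x, hx, 1, (mul_one x).symm, by simp [upperLayer, C.enc_one]⟩
  | succ d ih =>
    intro hk x hx
    obtain ⟨h', hh', e, he, rfl⟩ :=
      exists_of_mem_succ hwf hs hp (show k + d < D.P.n by omega) hx
    obtain ⟨h, hh, u, rfl, hu⟩ := ih (by omega) h' hh'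
    refine ⟨h, hh, u * gen (k + d) ^ e, by rw [mul_assoc], ?_⟩
    simp only [upperLayer, List.mem_flatMap, List.mem_range, List.mem_map]
    exact ⟨e, he, C.enc u, hu, by rw [C.enc_mul, enc_pow, hgen _ (by omega)]⟩

theorem groupOK_of_sep {D : Cert} (hp : D.P.p.Prime) (hwf : D.P.wf = true)
    (hgen : ∀ i < D.P.n, C.enc (gen i) = D.gens.getD i C.one) {k : ℕ} (hk : k ≤ D.P.n)
    (hrel : relB D C.mul C.one = true) (hsep : sepAll D C.mul C.one k = true) :
    D.groupOK C.mul C.one = true := by
  simp only [relB, List.all_eq_true, List.mem_range, Bool.and_eq_true] at hrel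
  simp only [sepAll, List.all_eq_true, List.mem_range] at hsep
  have hsat : SatPC D.P gen := by
    constructor
    · intro j hj
      apply C.enc_inj
      rw [enc_pow, hgen j hj, enc_evalW C hgen _ fun x hx =>
        (PC.wf_powWord hwf hj x hx).trans hj]
      exact Nat.eq_of_beq_eq_true (hrel j hj).1
    · intro j hj i hi
      apply C.enc_inj
      rw [C.enc_mul, C.enc_mul, hgen j hj, hgen i (hi.trans hj), enc_evalW C hgen _ fun x hx =>
        (PC.wf_cjWord hwf hj hi x hx).trans hj]
      exact Nat.eq_of_beq_eq_true ((hrel j hj).2 i hi)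
  have hback : ∀ j ≤ D.P.n, ∀ c ∈ D.layer C.mul C.one j, ∃ x ∈ initGroup gen j, C.enc x = c := by
    intro j
    induction j with
    | zero =>
      intro _ c hc
      simp only [Cert.layer, List.mem_singleton] at hc
      exact ⟨1, one_mem _, by rw [hc, C.enc_one]⟩
    | succ j ih =>
      intro hj c hc
      simp only [Cert.layer, List.mem_flatMap, List.mem_range, List.mem_map] at hc
      obtain ⟨e, -, y, hy, rfl⟩ := hc
      obtain ⟨x, hx, rfl⟩ := ih (by omega) y hy
      refine ⟨x * gen j ^ e, mul_mem (initGroup_mono gen (Nat.le_succ j) hx)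
        (pow_mem (mem_initGroup gen (Nat.lt_succ_self j)) _), ?_⟩
      rw [C.enc_mul, enc_pow, hgen j (by omega)]
  have hlayer : ∀ j ≤ D.P.n, ∀ x ∈ initGroup gen j, C.enc x ∈ D.layer C.mul C.one j := by
    intro j
    induction j with
    | zero =>
      intro _ x hx
      rw [initGroup_zero, Subgroup.mem_bot] at hx
      subst hx
      simp [Cert.layer, C.enc_one]
    | succ j ih =>
      intro hj x hx
      obtain ⟨h, hh, e, he, rfl⟩ := exists_of_mem_succ hwf hsat hp.pos hj hx
      simp only [Cert.layer, List.mem_flatMap, List.mem_range, List.mem_map]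
      exact ⟨e, he, C.enc h, ih (Nat.le_of_succ_le hj) h hh, by
        rw [C.enc_mul, enc_pow, hgen j hj]⟩
  have hout : ∀ j < D.P.n, gen j ∉ initGroup gen j := by
    intro j hj hmem
    have h := hsep j hj
    simp only [sepB] at h
    rcases Nat.lt_or_ge j k with hjk | hjk
    · rw [show Nat.blt j k = true from Nat.blt_eq.mpr hjk, cond_true, Bool.not_eq_true',
        List.any_eq_false] at h
      exact h _ (hlayer j hj.le _ hmem) (by rw [hgen j hj]; exact Nat.beq_refl _)
    · have hb : Nat.blt j k = false := by
        cases hb : Nat.blt j k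
        · rfl
        · rw [Nat.blt_eq] at hb; omega
      rw [hb, cond_false] at h
      obtain ⟨a, ha, u, hau, hu⟩ := exists_split C hp.pos hwf hsat hgen k (j - k) (by omega) (gen j)
        (by rwa [Nat.add_sub_cancel' hjk])
      have hnd := nodup_of_incB_sortKeys h
      rw [List.nodup_append] at hnd
      refine hnd.2.2 (C.enc u) (List.mem_map.mpr
        ⟨C.enc a⁻¹, hlayer k hk _ (inv_mem ha), ?_⟩) (C.enc u) hu rfl
      rw [← hgen j hj, ← C.enc_mul, hau, inv_mul_cancel_left]
  simp only [Cert.groupOK, List.all_eq_true, List.mem_range, Bool.and_eq_true]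
  intro j hj
  refine ⟨hrel j hj, ?_⟩
  rw [Bool.not_eq_true', List.any_eq_false]
  intro c hc hbeq
  obtain ⟨x, hx, rfl⟩ := hback j hj.le c hc
  have e := Nat.eq_of_beq_eq_true hbeq
  rw [← hgen j hj] at e
  exact hout j hj (C.enc_inj e ▸ hx)

end Cfsg.Agent.Leech
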