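import Cfsg.Agent.Leech.MatProg
import Cfsg.Agent.Leech.GroupSep

/-!
The first Conway group coded by matrices modulo 2.
-/

set_option autoImplicit false
set_option maxHeartbeats 400000

namespace Cfsg.Agent.Leech

open Cfsg Cfsg.Agent.Golay Cfsg.Agent.SchurCert

attribute [local irreducible] matOne matMul keyOf

theorem matEnc_mul_negCo0 (g : Co0) : matEnc (g * negCo0) = matEnc g := by
  rw [matEnc, matEnc, colsOf, colsOf]
  refine congrArg packCols (List.map_congr_left fun v _ => ?_)
  rw [mul_smul, negCo0_smul, co0_neg, AddSubgroup.coe_neg, keyOf_neg (g • v).2]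

attribute [local irreducible] matEnc colsOf

theorem matEnc_out (g : Co0) :
    matEnc (QuotientGroup.mk g : Co0 ⧸ Subgroup.center Co0).out = matEnc g := by
  obtain ⟨h, hh⟩ := QuotientGroup.mk_out_eq_mul (Subgroup.center Co0) g
  rw [hh]
  rcases (center_eq _).mp h.2 with e | e
  · rw [e, mul_one]
  · rw [e, matEnc_mul_negCo0]

/-- The first Conway group coded by matrices modulo 2. -/
noncomputable def co1Code : Code (Co0 ⧸ Subgroup.center Co0) where
  mul := matMul
  one := matOne
  enc q := matEnc q.out
  enc_one := (matEnc_out 1).trans matEnc_one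
  enc_mul a b := by
    conv_lhs => rw [← QuotientGroup.out_eq' a, ← QuotientGroup.out_eq' b, ← QuotientGroup.mk_mul]
    rw [matEnc_out, matEnc_mul]
  enc_inj a b h := by
    rcases eq_or_neg_of_matEnc h with e | e
    · rw [← QuotientGroup.out_eq' a, e, QuotientGroup.out_eq']
    · rw [← QuotientGroup.out_eq' a, e, QuotientGroup.mk_mul, QuotientGroup.out_eq',
        (QuotientGroup.eq_one_iff negCo0).mpr ((center_eq _).mpr (Or.inr rfl)), mul_one]

/-- An element with the given code, if there is one. -/
noncomputable def co1Elem (c : ℕ) : Co0 ⧸ Subgroup.center Co0 :=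
  open Classical in
  if h : ∃ g : Co0, matEnc g = c then QuotientGroup.mk h.choose else 1

theorem enc_co1Elem {P : MatProg} {need : List ℕ} (hP : P.okB [] need = true) {L : List ℕ}
    (hL : ∀ c ∈ L, c ∈ need) (i : ℕ) :
    co1Code.enc (co1Elem (L.getD i matOne)) = L.getD i matOne := by
  have hex : ∃ g : Co0, matEnc g = L.getD i matOne := by
    rw [List.getD_eq_getElem?_getD]
    cases hi : L[i]? with
    | none => exact ⟨1, matEnc_one⟩
    | some x =>
      obtain ⟨g, -, e⟩ := exists_of_okB (conf := []) hP x (hL x (List.mem_of_getElem? hi))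
      exact ⟨g, e⟩
  rw [co1Elem, dif_pos hex]
  exact (matEnc_out _).trans hex.choose_spec

theorem card_co1 : Nat.card (Co0 ⧸ Subgroup.center Co0) = 4157776806543360000 :=
  isCo1_quotient.2

theorem finite_co1 : Finite (Co0 ⧸ Subgroup.center Co0) :=
  Nat.finite_of_card_ne_zero (by rw [card_co1]; norm_num)

/-- A certified prime does not divide the Schur multiplier of the first Conway group. -/
theorem co1_not_dvd_of_data (p : ℕ) [Fact p.Prime] (D : Cert) (hDp : D.P.p = p) (P : MatProg)
    {need : List ℕ} (hP : P.okB [] need = true) (hneed : ∀ c ∈ D.gens ++ D.gs, c ∈ need)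
    (hwf : D.P.wf = true) (k : ℕ) (hk : k ≤ D.P.n)
    (hrel : relB D matMul matOne = true) (hsep : sepAll D matMul matOne k = true)
    (hrows : D.rows.all (D.rowOK matMul matOne) = true) (hlin : D.linOK = true)
    {m : ℕ} (hN : 4157776806543360000 = p ^ D.P.n * m) (hm : ¬ p ∣ m) :
    ¬ p ∣ Nat.card (CentralExt.schurMult (Co0 ⧸ Subgroup.center Co0)) := by
  have := finite_co1
  let gen : ℕ → Co0 ⧸ Subgroup.center Co0 := fun i => co1Elem (D.gens.getD i matOne)
  let gsE : ℕ → Co0 ⧸ Subgroup.center Co0 := fun i => co1Elem (D.gs.getD i matOne)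
  have hgen : ∀ i < D.P.n, co1Code.enc (gen i) = D.gens.getD i matOne := fun i _ =>
    enc_co1Elem hP (fun c hc => hneed c (List.mem_append_left _ hc)) i
  have hgs : ∀ i, co1Code.enc (gsE i) = D.gs.getD i matOne := fun i =>
    enc_co1Elem hP (fun c hc => hneed c (List.mem_append_right _ hc)) i
  have hgrp : D.groupOK matMul matOne = true :=
    groupOK_of_sep co1Code (hDp.symm ▸ (Fact.out : p.Prime)) hwf hgen hk hrel hsep
  have hchk : D.check matMul matOne = true := by
    simp only [Cert.check, hwf, hgrp, hrows, hlin, Bool.and_self]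
  obtain ⟨-, hc⟩ := card_initGroup_of_groupOK co1Code D (hDp.symm ▸ (Fact.out : p.Prime)) gen hgen
    hwf hgrp
  refine not_dvd_schurMult_of_cert co1Code D p hDp gen gsE hgen hgs ?_ hchk
  rw [index_initGroup card_co1 (hc.trans (by rw [hDp])) hN]
  exact hm

end Cfsg.Agent.Leech
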