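import Cfsg.Agent.SchurCert.Cert

/-!
A faster form of the linear test of a certificate: the equations are packed once each.
-/

set_option autoImplicit false

namespace Cfsg.Agent.Leech

open Cfsg.Agent.SchurCert

/-- The packed multiplicities. -/
def packF : List ℕ → ℕ
  | [] => 0
  | x :: l => Nat.add (Nat.pow 2 (Nat.mul 24 x)) (packF l)

/-- All entries are below `m`. -/
def boundF (m : ℕ) : List ℕ → Bool
  | [] => true
  | x :: l => Nat.blt x m && boundF m l

/-- The length. -/
def lenF : List ℕ → ℕ
  | [] => 0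
  | _ :: l => Nat.succ (lenF l)

/-- A sum over the listed indices. -/
def sumF (f : ℕ → ℕ) : List ℕ → ℕ
  | [] => 0
  | r :: l => Nat.add (f r) (sumF f l)

/-- The digits agree modulo `p`. -/
def digitsF (p : ℕ) : ℕ → ℕ → ℕ → Bool
  | 0, _, _ => true
  | n + 1, x, y => Nat.beq (Nat.mod (Nat.mod x 16777216) p) (Nat.mod (Nat.mod y 16777216) p) &&
      digitsF p n (Nat.div x 16777216) (Nat.div y 16777216)

theorem packF_eq : ∀ L : List ℕ, packCount L = packF L
  | [] => rfl
  | x :: l => by
    rw [packCount, List.map_cons, List.sum_cons, ← packCount, packF_eq l]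
    rfl

theorem lenF_eq : ∀ L : List ℕ, L.length = lenF L
  | [] => rfl
  | _ :: l => by rw [List.length_cons, lenF_eq l]; rfl

theorem boundF_iff {m : ℕ} : ∀ {L : List ℕ}, boundF m L = true ↔ ∀ x ∈ L, x < m
  | [] => by simp [boundF]
  | x :: l => by simp [boundF, boundF_iff (L := l), Nat.blt_eq]

theorem digitsF_spec {p : ℕ} : ∀ {n x y : ℕ}, digitsF p n x y = true → ∀ l < n,
    x / 2 ^ (24 * l) % 16777216 % p = y / 2 ^ (24 * l) % 16777216 % p
  | 0, _, _, _, l, hl => absurd hl (Nat.not_lt_zero l)
  | n + 1, x, y, h, l, hl => by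
    simp only [digitsF, Bool.and_eq_true] at h
    cases l with
    | zero =>
      rw [Nat.mul_zero, pow_zero, Nat.div_one, Nat.div_one]
      exact Nat.eq_of_beq_eq_true h.1
    | succ l =>
      have e : ∀ z : ℕ, z / 2 ^ (24 * (l + 1)) = z / 16777216 / 2 ^ (24 * l) := fun z => by
        rw [Nat.div_div_eq_div_mul, show 24 * (l + 1) = 24 + 24 * l by ring, pow_add]; rfl
      rw [e, e]
      exact digitsF_spec h.2 l (Nat.lt_of_succ_lt_succ hl)

theorem packCount_append (A B : List ℕ) : packCount (A ++ B) = packCount A + packCount B := by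
  simp [packCount]

theorem packCount_flatMap (f : ℕ → List ℕ) : ∀ c : List ℕ,
    packCount (c.flatMap f) = sumF (fun r => packF (f r)) c
  | [] => rfl
  | r :: c => by
    rw [List.flatMap_cons, packCount_append, packCount_flatMap f c, packF_eq]; rfl

theorem length_flatMap_eq (f : ℕ → List ℕ) : ∀ c : List ℕ,
    (c.flatMap f).length = sumF (fun r => lenF (f r)) c
  | [] => rfl
  | r :: c => by
    rw [List.flatMap_cons, List.length_append, length_flatMap_eq f c, lenF_eq]; rfl

variable (D : Cert)

/-- The first side of an equation. -/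
def side1 (r : ℕ) : List ℕ := ((D.rows.map D.rowEq).getD r ([], [])).1

/-- The second side of an equation. -/
def side2 (r : ℕ) : List ℕ := ((D.rows.map D.rowEq).getD r ([], [])).2

/-- The linear forms of a relation agree. -/
def formF (h₁ h₂ c : List ℕ) : Bool :=
  boundF D.nvar h₁ && boundF D.nvar h₂ &&
    Nat.blt (Nat.add (lenF h₁) (sumF (fun r => lenF (side1 D r)) c)) 16777216 &&
    Nat.blt (Nat.add (lenF h₂) (sumF (fun r => lenF (side2 D r)) c)) 16777216 &&
    digitsF D.P.p D.nvar (Nat.add (packF h₁) (sumF (fun r => packF (side1 D r)) c))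
      (Nat.add (packF h₂) (sumF (fun r => packF (side2 D r)) c))

/-- The corrected tails vanish. -/
def linFast : Bool :=
  ((D.rows.map D.rowEq).all fun q => boundF D.nvar q.1 && boundF D.nvar q.2) &&
    (List.range D.P.n).all fun j =>
      formF D (PC.pVar j :: D.betaW (D.P.powWord j)) [] (D.combo.getD (PC.pVar j) []) &&
        (List.range j).all fun i =>
          formF D (PC.cVar j i :: D.betaW (D.P.cjWord j i)) (D.beta.getD i [])
            (D.combo.getD (PC.cVar j i) [])

variable {D}

theorem sameForm_of_formF {h₁ h₂ c : List ℕ}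
    (hb : ((D.rows.map D.rowEq).all fun q => boundF D.nvar q.1 && boundF D.nvar q.2) = true)
    (h : formF D h₁ h₂ c = true) :
    sameForm D.P.p D.nvar (h₁ ++ c.flatMap (side1 D)) (h₂ ++ c.flatMap (side2 D)) = true := by
  simp only [formF, Bool.and_eq_true, Nat.blt_eq] at h
  obtain ⟨⟨⟨⟨b1, b2⟩, l1⟩, l2⟩, hd⟩ := h
  have hs : ∀ r, (∀ x ∈ side1 D r, x < D.nvar) ∧ ∀ x ∈ side2 D r, x < D.nvar := by
    intro r
    simp only [side1, side2, List.getD_eq_getElem?_getD]
    cases hr : (D.rows.map D.rowEq)[r]? with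
    | none => simp
    | some q =>
      have := List.all_eq_true.mp hb q (List.mem_of_getElem? hr)
      rw [Bool.and_eq_true] at this
      exact ⟨boundF_iff.mp this.1, boundF_iff.mp this.2⟩
  simp only [sameForm, Bool.and_eq_true, List.all_eq_true, Nat.blt_eq, List.mem_range,
    List.length_append, length_flatMap_eq]
  rw [lenF_eq h₁, lenF_eq h₂]
  refine ⟨⟨⟨⟨?_, ?_⟩, l1⟩, l2⟩, fun l hl => ?_⟩
  · intro x hx
    rcases List.mem_append.mp hx with hx | hx
    · exact boundF_iff.mp b1 x hx
    · obtain ⟨r, -, hr⟩ := List.mem_flatMap.mp hx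
      exact (hs r).1 x hr
  · intro x hx
    rcases List.mem_append.mp hx with hx | hx
    · exact boundF_iff.mp b2 x hx
    · obtain ⟨r, -, hr⟩ := List.mem_flatMap.mp hx
      exact (hs r).2 x hr
  · rw [packCount_append, packCount_append, packCount_flatMap, packCount_flatMap, packF_eq,
      packF_eq]
    have e := digitsF_spec hd l hl
    exact Nat.beq_eq.mpr e

theorem linOK_of_fast (h : linFast D = true) : D.linOK = true := by
  simp only [linFast, Bool.and_eq_true] at h
  obtain ⟨hb, hj⟩ := h
  simp only [List.all_eq_true, List.mem_range, Bool.and_eq_true] at hj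
  simp only [Cert.linOK, List.all_eq_true, List.mem_range, Bool.and_eq_true]
  intro j hjn
  refine ⟨?_, fun i hi => ?_⟩
  · exact sameForm_of_formF hb (hj j hjn).1
  · exact sameForm_of_formF hb ((hj j hjn).2 i hi)

end Cfsg.Agent.Leech
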