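import Cfsg.Agent.Leech.LinFast
import Cfsg.Agent.SchurBound.Bound

/-!
A faster form of the linear test of a bound certificate.
-/

set_option autoImplicit false

namespace Cfsg.Agent.Leech

open Cfsg.Agent.SchurCert Cfsg.Agent.SchurBound

/-- The first side of an equation of a list. -/
def eqSide1 (es : List (List ℕ × List ℕ)) (r : ℕ) : List ℕ := (es.getD r ([], [])).1

/-- The second side of an equation of a list. -/
def eqSide2 (es : List (List ℕ × List ℕ)) (r : ℕ) : List ℕ := (es.getD r ([], [])).2

/-- Linear forms modulo `q` agree. -/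
def formQ (q m : ℕ) (es : List (List ℕ × List ℕ)) (h₁ h₂ c : List ℕ) : Bool :=
  boundF m h₁ && boundF m h₂ &&
    Nat.blt (Nat.add (lenF h₁) (sumF (fun r => lenF (eqSide1 es r)) c)) 16777216 &&
    Nat.blt (Nat.add (lenF h₂) (sumF (fun r => lenF (eqSide2 es r)) c)) 16777216 &&
    digitsF q m (Nat.add (packF h₁) (sumF (fun r => packF (eqSide1 es r)) c))
      (Nat.add (packF h₂) (sumF (fun r => packF (eqSide2 es r)) c))

/-- The multiples of the corrected tails vanish. -/
def linFastB (B : BCert) : Bool :=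
  (B.eqs.all fun q => boundF B.D.nvar q.1 && boundF B.D.nvar q.2) &&
    (List.range B.D.P.n).all fun j =>
      formQ B.q B.D.nvar B.eqs (B.scaled (PC.pVar j :: B.D.betaW (B.D.P.powWord j))) []
          (B.D.combo.getD (PC.pVar j) []) &&
        (List.range j).all fun i =>
          formQ B.q B.D.nvar B.eqs (B.scaled (PC.cVar j i :: B.D.betaW (B.D.P.cjWord j i)))
            (B.scaled (B.D.beta.getD i [])) (B.D.combo.getD (PC.cVar j i) [])

theorem sameForm_of_formQ {q m : ℕ} {es : List (List ℕ × List ℕ)} {h₁ h₂ c : List ℕ}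
    (hb : (es.all fun x => boundF m x.1 && boundF m x.2) = true)
    (h : formQ q m es h₁ h₂ c = true) :
    sameForm q m (h₁ ++ c.flatMap (eqSide1 es)) (h₂ ++ c.flatMap (eqSide2 es)) = true := by
  simp only [formQ, Bool.and_eq_true, Nat.blt_eq] at h
  obtain ⟨⟨⟨⟨b1, b2⟩, l1⟩, l2⟩, hd⟩ := h
  have hs : ∀ r, (∀ x ∈ eqSide1 es r, x < m) ∧ ∀ x ∈ eqSide2 es r, x < m := by
    intro r
    simp only [eqSide1, eqSide2, List.getD_eq_getElem?_getD]
    cases hr : es[r]? with
    | none => simp
    | some x =>
      have := List.all_eq_true.mp hb x (List.mem_of_getElem? hr)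
      rw [Bool.and_eq_true] at this
      exact ⟨boundF_iff.mp this.1, boundF_iff.mp this.2⟩
  simp only [sameForm, Bool.and_eq_true, List.all_eq_true, Nat.blt_eq, List.mem_range,
    List.length_append, length_flatMap_eq]
  rw [lenF_eq h₁, lenF_eq h₂]
  refine ⟨⟨⟨⟨?_, ?_⟩, l1⟩, l2⟩, fun l hl => ?_⟩
  · intro x hx
    rcases List.mem_append.mp hx with hx | hx
    · exact boundF_iff.mp b1 x hx
    · obtain ⟨r, -, hr⟩ := List.mem_flatMap.mp hx
      exact (hs r).1 x hr
  · intro x hx
    rcases List.mem_append.mp hx with hx | hx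
    · exact boundF_iff.mp b2 x hx
    · obtain ⟨r, -, hr⟩ := List.mem_flatMap.mp hx
      exact (hs r).2 x hr
  · rw [packCount_append, packCount_append, packCount_flatMap, packCount_flatMap, packF_eq,
      packF_eq]
    exact Nat.beq_eq.mpr (digitsF_spec hd l hl)

theorem bcert_linOK_of_fast {B : BCert} (h : linFastB B = true) : B.linOK = true := by
  simp only [linFastB, Bool.and_eq_true] at h
  obtain ⟨hb, hj⟩ := h
  simp only [List.all_eq_true, List.mem_range, Bool.and_eq_true] at hj
  simp only [BCert.linOK, List.all_eq_true, List.mem_range, Bool.and_eq_true]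
  intro j hjn
  refine ⟨?_, fun i hi => ?_⟩
  · exact sameForm_of_formQ hb (hj j hjn).1
  · exact sameForm_of_formQ hb ((hj j hjn).2 i hi)

end Cfsg.Agent.Leech
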