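import Cfsg.Agent.Leech.MatCode
import Cfsg.Agent.Leech.Configs
import Cfsg.Agent.SchurCert.Trivial

/-!
Certificates on codes modulo 2: a straight-line program over certified words shows that listed
codes come from automorphisms fixing given vectors; with a presentation of a Sylow subgroup this
shows that a prime does not divide a Schur multiplier.
-/

set_option autoImplicit false
set_option maxHeartbeats 400000

namespace Cfsg.Agent.Leech

open Cfsg Cfsg.Agent.Golay Cfsg.Agent.SchurCert

attribute [local irreducible] matEnc matOne matMul colsOf keyOf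

/-- Certified words and steps of a straight-line program on their codes; the two numbers of a step
count back from the newest code. -/
structure MatProg where
  /-- Words with their columns. -/
  base : List (List ℕ × List ℕ)
  /-- Steps with their results. -/
  steps : List (ℕ × ℕ × ℕ)

/-- The steps compute what they claim. -/
def progB : List ℕ → List (ℕ × ℕ × ℕ) → Bool
  | _, [] => true
  | L, (i, j, c) :: r =>
    Nat.beq c (matMul (L.getD i matOne) (L.getD j matOne)) && progB (c :: L) r

/-- All codes met. -/
def progCodes : List ℕ → List (ℕ × ℕ × ℕ) → List ℕ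
  | L, [] => L
  | L, (_, _, c) :: r => progCodes (c :: L) r

/-- The codes of the certified words, last first. -/
def MatProg.known (P : MatProg) : List ℕ := (P.base.map fun g => packCols g.2).reverse

/-- The program is correct for automorphisms fixing the vectors and reaches the needed codes. -/
def MatProg.okB (P : MatProg) (conf : List (GolayPt → ℤ)) (need : List ℕ) : Bool :=
  (P.base.all fun g => actsB g.1 g.2 && Nat.beq g.2.length 24 && conf.all (fixesB g.1)) &&
    progB P.known P.steps &&
    (let L := progCodes P.known P.steps; need.all fun c => L.any (Nat.beq c))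

theorem progCodes_achieved (H : Subgroup Co0) : ∀ (r : List (ℕ × ℕ × ℕ)) (L : List ℕ),
    progB L r = true → (∀ c ∈ L, ∃ g ∈ H, matEnc g = c) →
      ∀ c ∈ progCodes L r, ∃ g ∈ H, matEnc g = c := by
  intro r
  induction r with
  | nil => intro L _ hL c hc; exact hL c hc
  | cons s r ih =>
    obtain ⟨i, j, c₀⟩ := s
    intro L h hL
    simp only [progB, Bool.and_eq_true] at h
    refine ih (c₀ :: L) h.2 fun c hc => ?_
    rcases List.mem_cons.mp hc with rfl | hc
    · have hget : ∀ i, ∃ g ∈ H, matEnc g = L.getD i matOne := by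
        intro i
        rw [List.getD_eq_getElem?_getD]
        cases hi : L[i]? with
        | none => exact ⟨1, one_mem _, matEnc_one⟩
        | some x => exact hL x (List.mem_of_getElem? hi)
      obtain ⟨a, ha, ea⟩ := hget i
      obtain ⟨b, hb, eb⟩ := hget j
      refine ⟨a * b, mul_mem ha hb, ?_⟩
      rw [matEnc_mul, ea, eb, Nat.eq_of_beq_eq_true h.1]
    · exact hL c hc

theorem exists_of_okB {P : MatProg} {conf : List leechLattice} {need : List ℕ}
    (h : P.okB (conf.map fun v => v.1) need = true) :
    ∀ c ∈ need, ∃ g ∈ fixConf conf, matEnc g = c := by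
  simp only [MatProg.okB, Bool.and_eq_true, List.all_eq_true, List.any_eq_true] at h
  obtain ⟨⟨hbase, hprog⟩, hneed⟩ := h
  intro c hc
  obtain ⟨x, hx, hcx⟩ := hneed c hc
  rw [Nat.eq_of_beq_eq_true hcx]
  refine progCodes_achieved (fixConf conf) _ _ hprog (fun y hy => ?_) x hx
  rw [MatProg.known, List.mem_reverse, List.mem_map] at hy
  obtain ⟨g, hg, rfl⟩ := hy
  obtain ⟨⟨hacts, hlen⟩, hfix⟩ := hbase g hg
  refine ⟨wordAut g.1, mem_fixConf.mpr fun v hv => ?_, ?_⟩
  · exact MulAction.mem_stabilizer_iff.mp
      (wordAut_mem_stabilizer (hfix v.1 (List.mem_map_of_mem hv)))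
  · rw [matEnc, colsOf_eq_of_acts hacts (Nat.eq_of_beq_eq_true hlen)]

variable (K : Subgroup (Equiv.Perm leechLattice))

/-- A group of automorphisms without the negation, coded by matrices modulo 2. -/
noncomputable def sporCode (hK : K ≤ Co0) (hneg : negCo0.1 ∉ K) : Code K where
  mul := matMul
  one := matOne
  enc g := matEnc (Subgroup.inclusion hK g)
  enc_one := by rw [map_one]; exact matEnc_one
  enc_mul a b := by rw [map_mul]; exact matEnc_mul _ _
  enc_inj a b h := by
    rcases eq_or_neg_of_matEnc h with e | e
    · exact Subgroup.inclusion_injective hK e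
    · refine absurd ?_ hneg
      have : negCo0 = Subgroup.inclusion hK (b⁻¹ * a) := by
        rw [map_mul, map_inv, e, inv_mul_cancel_left]
      rw [this]
      exact (b⁻¹ * a).2

/-- An element of the group with the given code, if there is one. -/
noncomputable def sporElem (hK : K ≤ Co0) (c : ℕ) : K :=
  open Classical in
  if h : ∃ g : K, matEnc (Subgroup.inclusion hK g) = c then h.choose else 1

theorem matEnc_sporElem (hK : K ≤ Co0) {conf : List leechLattice}
    (hconf : ∀ g : Co0, g ∈ fixConf conf → g.1 ∈ K) {L : List ℕ}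
    (h : ∀ c ∈ L, ∃ g ∈ fixConf conf, matEnc g = c) (i : ℕ) :
    matEnc (Subgroup.inclusion hK (sporElem K hK (L.getD i matOne))) = L.getD i matOne := by
  have hex : ∃ g : K, matEnc (Subgroup.inclusion hK g) = L.getD i matOne := by
    rw [List.getD_eq_getElem?_getD]
    cases hi : L[i]? with
    | none => exact ⟨1, by rw [map_one]; exact matEnc_one⟩
    | some x =>
      obtain ⟨g, hg, e⟩ := h x (List.mem_of_getElem? hi)
      exact ⟨⟨g.1, hconf g hg⟩, e⟩
  rw [sporElem, dif_pos hex]
  exact hex.choose_spec

/-- A certified prime does not divide the Schur multiplier. -/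
theorem not_dvd_of_data (hK : K ≤ Co0) (hneg : negCo0.1 ∉ K) (p : ℕ) [Fact p.Prime]
    (D : Cert) (hDp : D.P.p = p) (P : MatProg) {conf : List leechLattice}
    (hconf : ∀ g : Co0, g ∈ fixConf conf → g.1 ∈ K)
    (hP : P.okB (conf.map fun v => v.1) (D.gens ++ D.gs) = true)
    (hD : D.check matMul matOne = true) {N m : ℕ} (hcard : Nat.card K = N)
    (hN : N = p ^ D.P.n * m) (hm : ¬ p ∣ m) :
    ¬ p ∣ Nat.card (CentralExt.schurMult K) := by
  have : Finite K := by
    haveI := finite_Co0
    exact Finite.of_injective _ (Subgroup.inclusion_injective hK)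
  have hall := exists_of_okB hP
  let gen : ℕ → K := fun i => sporElem K hK (D.gens.getD i matOne)
  let gsE : ℕ → K := fun i => sporElem K hK (D.gs.getD i matOne)
  have hgen : ∀ i < D.P.n, (sporCode K hK hneg).enc (gen i) = D.gens.getD i matOne := fun i _ =>
    matEnc_sporElem K hK hconf (fun c hc => hall c (List.mem_append_left _ hc)) i
  have hgs : ∀ i, (sporCode K hK hneg).enc (gsE i) = D.gs.getD i matOne := fun i =>
    matEnc_sporElem K hK hconf (fun c hc => hall c (List.mem_append_right _ hc)) i
  have hchk := hD
  simp only [Cert.check, Bool.and_eq_true] at hchk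
  obtain ⟨-, hc⟩ := card_initGroup_of_groupOK (sporCode K hK hneg) D
    (hDp.symm ▸ (Fact.out : p.Prime)) gen hgen hchk.1.1.1 hchk.1.1.2
  refine not_dvd_schurMult_of_cert (sporCode K hK hneg) D p hDp gen gsE hgen hgs ?_ hD
  rw [index_initGroup hcard (hc.trans (by rw [hDp])) hN]
  exact hm

/-- A prime outside the factor with all the squares divides the order at most once. -/
theorem sq_not_dvd_of_cofactor {p N A B C : ℕ} (hp : p.Prime) (hN : N = A * B) (hA : ¬ p ∣ A)
    (hB0 : 0 < B) (hBC : B < C * C) (hB : ∀ q < C, 2 ≤ q → ¬ q ^ 2 ∣ B) : ¬ p ^ 2 ∣ N := by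
  rw [hN]
  intro h
  have h' := (Nat.Coprime.pow_left 2 (hp.coprime_iff_not_dvd.2 hA)).dvd_of_dvd_mul_left h
  have hlt : p < C := by
    by_contra hC
    have := Nat.le_of_dvd hB0 h'
    rw [pow_two] at this
    have := Nat.mul_le_mul (not_lt.1 hC) (not_lt.1 hC)
    omega
  exact hB p hlt hp.two_le h'

theorem MatProg.okB_of_subset {P : MatProg} {conf : List (GolayPt → ℤ)} {L L' : List ℕ}
    (h : P.okB conf L' = true) (hs : ∀ c ∈ L, c ∈ L') : P.okB conf L = true := by
  simp only [MatProg.okB, Bool.and_eq_true, List.all_eq_true] at h ⊢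
  exact ⟨h.1, fun c hc => h.2 c (hs c hc)⟩

end Cfsg.Agent.Leech
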