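import Cfsg.Agent.Leech.SchurCo1Data
import Cfsg.Agent.Leech.Co1Code
import Cfsg.Agent.Leech.LinFastB
import Cfsg.Agent.SchurBound.Main

/-!
The Schur multiplier of the first Conway group is cyclic of order two.
-/

set_option autoImplicit false
set_option maxHeartbeats 400000
set_option Elab.async false

namespace Cfsg.Agent.Leech

open Cfsg Cfsg.Agent.Golay Cfsg.Agent.SchurCert Cfsg.Agent.SchurBound
open scoped commutatorElement

theorem commutator_co0 : commutator Co0 = ⊤ := by
  rcases normal_le_center_or_top (commutator Co0) with h | h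
  · exfalso
    have := isCo1_quotient.1
    let cg : CommGroup (Co0 ⧸ Subgroup.center Co0) :=
      { (inferInstance : Group (Co0 ⧸ Subgroup.center Co0)) with
        mul_comm := fun a b => by
          induction a using QuotientGroup.induction_on with
          | _ a =>
            induction b using QuotientGroup.induction_on with
            | _ b =>
              rw [← QuotientGroup.mk_mul, ← QuotientGroup.mk_mul, QuotientGroup.eq]
              refine h ?_
              have e : (a * b)⁻¹ * (b * a) = ⁅b⁻¹, a⁻¹⁆ := by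
                rw [commutatorElement_def]; group
              rw [e, commutator_def]
              exact Subgroup.commutator_mem_commutator (Subgroup.mem_top _) (Subgroup.mem_top _) }
    have hp := @IsSimpleGroup.prime_card _ cg this
    rw [card_co1] at hp
    norm_num at hp
  · exact h

theorem co0_stem : IsStemExtension (QuotientGroup.mk' (Subgroup.center Co0)) :=
  ⟨QuotientGroup.mk'_surjective _, by rw [QuotientGroup.ker_mk'],
    by rw [commutator_co0]; exact le_top⟩

/-- All codes needed by the certificates. -/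
def co1Need : List ℕ :=
  Schur.co1TwoGens ++ Schur.co1Bound1.D.gs ++ Schur.co1Bound2.D.gs ++
    (Schur.co1Cert3.gens ++ Schur.co1Cert3.gs) ++ (Schur.co1Cert5.gens ++ Schur.co1Cert5.gs) ++
    (Schur.co1Cert7.gens ++ Schur.co1Cert7.gs)

theorem co1Prog_ok : Schur.co1Prog.okB [] co1Need = true := by decide +kernel

theorem co1Bound1_wf : Schur.co1Bound1.D.P.wf = true := by decide +kernel

theorem co1Bound1_rel : relB Schur.co1Bound1.D matMul matOne = true := by decide +kernel

theorem co1Bound1_sep : sepAll Schur.co1Bound1.D matMul matOne 10 = true := by decide +kernel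

theorem co1Bound1_rows :
    Schur.co1Bound1.D.rows.all (Schur.co1Bound1.rowOK matMul matOne) = true := by decide +kernel

theorem co1Bound1_lin : Schur.co1Bound1.linOK = true := bcert_linOK_of_fast (by decide +kernel)

theorem co1Bound2_wf : Schur.co1Bound2.D.P.wf = true := by decide +kernel

theorem co1Bound2_rel : relB Schur.co1Bound2.D matMul matOne = true := by decide +kernel

theorem co1Bound2_sep : sepAll Schur.co1Bound2.D matMul matOne 10 = true := by decide +kernel

theorem co1Bound2_rows :
    Schur.co1Bound2.D.rows.all (Schur.co1Bound2.rowOK matMul matOne) = true := by decide +kernel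

theorem co1Bound2_lin : Schur.co1Bound2.linOK = true := bcert_linOK_of_fast (by decide +kernel)

theorem co1Cert3_parts : Schur.co1Cert3.P.wf = true ∧
    relB Schur.co1Cert3 matMul matOne = true ∧ sepAll Schur.co1Cert3 matMul matOne 4 = true ∧
      Schur.co1Cert3.rows.all (Schur.co1Cert3.rowOK matMul matOne) = true := by decide +kernel

theorem co1Cert3_lin : Schur.co1Cert3.linOK = true := linOK_of_fast (by decide +kernel)

theorem co1Cert5_parts : Schur.co1Cert5.P.wf = true ∧
    relB Schur.co1Cert5 matMul matOne = true ∧ sepAll Schur.co1Cert5 matMul matOne 2 = true ∧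
      Schur.co1Cert5.rows.all (Schur.co1Cert5.rowOK matMul matOne) = true := by decide +kernel

theorem co1Cert5_lin : Schur.co1Cert5.linOK = true := linOK_of_fast (by decide +kernel)

theorem co1Cert7_parts : Schur.co1Cert7.P.wf = true ∧
    relB Schur.co1Cert7 matMul matOne = true ∧ sepAll Schur.co1Cert7 matMul matOne 1 = true ∧
      Schur.co1Cert7.rows.all (Schur.co1Cert7.rowOK matMul matOne) = true := by decide +kernel

theorem co1Cert7_lin : Schur.co1Cert7.linOK = true := linOK_of_fast (by decide +kernel)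

theorem co1_applies (B : BCert) (hP : B.D.P.p = 2) (hn : B.D.P.n = 21)
    (hg : ∀ c ∈ B.D.gens, c ∈ co1Need) (hgs' : ∀ c ∈ B.D.gs, c ∈ co1Need)
    (hwf : B.D.P.wf = true) (hrel : relB B.D matMul matOne = true)
    (hsep : sepAll B.D matMul matOne 10 = true)
    (hrows : B.D.rows.all (B.rowOK matMul matOne) = true) (hlin : B.linOK = true) :
    Applies co1Code B 2 (fun i => co1Elem (B.D.gens.getD i matOne))
      (fun i => co1Elem (B.D.gs.getD i matOne)) := by
  have := finite_co1
  have hp : B.D.P.p.Prime := hP ▸ Nat.prime_two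
  have hgen : ∀ i < B.D.P.n,
      co1Code.enc (co1Elem (B.D.gens.getD i matOne)) = B.D.gens.getD i matOne := fun i _ =>
    enc_co1Elem co1Prog_ok hg i
  have hgrp : B.D.groupOK matMul matOne = true :=
    groupOK_of_sep co1Code hp hwf hgen (by rw [hn]; norm_num) hrel hsep
  obtain ⟨-, hc⟩ := card_initGroup_of_groupOK co1Code B.D hp _ hgen hwf hgrp
  refine ⟨Nat.prime_two, hP, hgen, fun i => enc_co1Elem co1Prog_ok hgs' i, ?_, ?_⟩
  · rw [index_initGroup (m := 1982582476875) card_co1 (hc.trans (by rw [hP, hn])) (by norm_num)]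
    norm_num
  · simp only [BCert.check, Bool.and_eq_true]
    exact ⟨⟨⟨hwf, hgrp⟩, hrows⟩, hlin⟩

theorem co1_two_part :
    (Nat.card (CentralExt.schurMult (Co0 ⧸ Subgroup.center Co0))).factorization 2 ≤ 1 := by
  have := finite_co1
  refine factorization_schurMult_le co1Code
    (co1_applies Schur.co1Bound1 rfl rfl
      (fun c hc => by simp only [co1Need, List.mem_append]; exact Or.inl (Or.inl (Or.inl (Or.inl (Or.inl hc)))))
      (fun c hc => by simp only [co1Need, List.mem_append]; exact Or.inl (Or.inl (Or.inl (Or.inl (Or.inr hc)))))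
      co1Bound1_wf co1Bound1_rel co1Bound1_sep co1Bound1_rows co1Bound1_lin)
    (co1_applies Schur.co1Bound2 rfl rfl
      (fun c hc => by simp only [co1Need, List.mem_append]; exact Or.inl (Or.inl (Or.inl (Or.inl (Or.inl hc)))))
      (fun c hc => by simp only [co1Need, List.mem_append]; exact Or.inl (Or.inl (Or.inl (Or.inr hc))))
      co1Bound2_wf co1Bound2_rel co1Bound2_sep co1Bound2_rows co1Bound2_lin)
    Schur.co1Kill rfl rfl rfl rfl rfl rfl

theorem co1_three : ¬ 3 ∣ Nat.card (CentralExt.schurMult (Co0 ⧸ Subgroup.center Co0)) :=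
  haveI : Fact (Nat.Prime 3) := ⟨Nat.prime_three⟩
  co1_not_dvd_of_data 3 Schur.co1Cert3 rfl Schur.co1Prog co1Prog_ok
    (fun c hc => by
      simp only [co1Need, List.mem_append] at hc ⊢; exact Or.inl (Or.inl (Or.inr hc)))
    co1Cert3_parts.1 4 (by decide +kernel) co1Cert3_parts.2.1 co1Cert3_parts.2.2.1
    co1Cert3_parts.2.2.2 co1Cert3_lin (m := 211236945920000) (by decide +kernel) (by norm_num)

theorem co1_five : ¬ 5 ∣ Nat.card (CentralExt.schurMult (Co0 ⧸ Subgroup.center Co0)) :=
  haveI : Fact (Nat.Prime 5) := ⟨by norm_num⟩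
  co1_not_dvd_of_data 5 Schur.co1Cert5 rfl Schur.co1Prog co1Prog_ok
    (fun c hc => by
      simp only [co1Need, List.mem_append] at hc ⊢; exact Or.inl (Or.inr hc))
    co1Cert5_parts.1 2 (by decide +kernel) co1Cert5_parts.2.1 co1Cert5_parts.2.2.1
    co1Cert5_parts.2.2.2 co1Cert5_lin (m := 6652442890469376) (by decide +kernel) (by norm_num)

theorem co1_seven : ¬ 7 ∣ Nat.card (CentralExt.schurMult (Co0 ⧸ Subgroup.center Co0)) :=
  haveI : Fact (Nat.Prime 7) := ⟨by norm_num⟩
  co1_not_dvd_of_data 7 Schur.co1Cert7 rfl Schur.co1Prog co1Prog_ok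
    (fun c hc => by
      simp only [co1Need, List.mem_append] at hc ⊢; exact Or.inr hc)
    co1Cert7_parts.1 1 (by decide +kernel) co1Cert7_parts.2.1 co1Cert7_parts.2.2.1
    co1Cert7_parts.2.2.2 co1Cert7_lin (m := 84852587888640000) (by decide +kernel) (by norm_num)

theorem card_schurMult_co1_le :
    Nat.card (CentralExt.schurMult (Co0 ⧸ Subgroup.center Co0)) ∣ 2 := by
  have := finite_co1
  have hpos : Nat.card (CentralExt.schurMult (Co0 ⧸ Subgroup.center Co0)) ≠ 0 := Nat.card_pos.ne'
  rw [← Nat.factorization_le_iff_dvd hpos (by norm_num)]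
  intro p
  by_cases hp : p.Prime
  swap
  · simp [Nat.factorization_eq_zero_of_not_prime _ hp]
  rcases eq_or_ne p 2 with rfl | h2
  · refine co1_two_part.trans ?_
    exact (Nat.prime_two.pow_dvd_iff_le_factorization (by norm_num)).1 (by norm_num)
  have : Fact p.Prime := ⟨hp⟩
  refine le_of_eq_of_le (Nat.factorization_eq_zero_of_not_dvd ?_) (Nat.zero_le _)
  rcases eq_or_ne p 3 with rfl | h3
  · exact co1_three
  rcases eq_or_ne p 5 with rfl | h5
  · exact co1_five
  rcases eq_or_ne p 7 with rfl | h7
  · exact co1_seven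
  refine not_dvd_schurMult_of_sq_not_dvd p ?_
  rw [card_co1]
  refine sq_not_dvd_of_cofactor (A := 2 ^ 21 * 3 ^ 9 * 5 ^ 4 * 7 ^ 2) (B := 3289) (C := 58) hp
    (by decide +kernel) (fun hd => ?_) (by norm_num) (by norm_num) (by decide +kernel)
  rcases hp.dvd_mul.1 hd with h | h
  · rcases hp.dvd_mul.1 h with h | h
    · rcases hp.dvd_mul.1 h with h | h
      · exact h2 ((Nat.prime_dvd_prime_iff_eq hp Nat.prime_two).1 (hp.dvd_of_dvd_pow h))
      · exact h3 ((Nat.prime_dvd_prime_iff_eq hp Nat.prime_three).1 (hp.dvd_of_dvd_pow h))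
    · exact h5 ((Nat.prime_dvd_prime_iff_eq hp (by norm_num)).1 (hp.dvd_of_dvd_pow h))
  · exact h7 ((Nat.prime_dvd_prime_iff_eq hp (by norm_num)).1 (hp.dvd_of_dvd_pow h))

theorem co1_multiplier : HasCyclicSchurMultiplier (Co0 ⧸ Subgroup.center Co0) 2 := by
  have := finite_co1
  have hk : (QuotientGroup.mk' (Subgroup.center Co0)).ker = Subgroup.center Co0 :=
    QuotientGroup.ker_mk' _
  have hc : Nat.card (QuotientGroup.mk' (Subgroup.center Co0)).ker = 2 := by
    rw [hk, card_center_Co0]
  have hcyc : IsCyclic (QuotientGroup.mk' (Subgroup.center Co0)).ker :=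
    @isCyclic_of_prime_card _ _ 2 ⟨Nat.prime_two⟩ hc
  have := finite_Co0
  exact CentralExt.hasSchurMultiplier_of_stem co0_stem
    (by rw [hc]; exact Nat.le_of_dvd (by norm_num) card_schurMult_co1_le)
    (mulEquivOfCyclicCardEq (by rw [hc, Nat.card_congr Multiplicative.toAdd, Nat.card_zmod]))

end Cfsg.Agent.Leech
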